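import Mathlib

/-! The numerical part of the principal block count. -/

set_option autoImplicit false

namespace CfsgLib.Fis

open Finset

theorem arith_core {ι : Type*} {B : Finset ι} {o : ι} (ho : o ∈ B) {n a : ι → ℕ} {w m s R κ : ℝ}
    (hn : ∀ i, 0 < n i) (hno : n o = 1) (hao : a o = 1) (hw : 3 ≤ w)
    (E1 : ∑ i ∈ B, (w * a i - n i) ^ 2 = (w - 1) * m * s)
    (E2 : ∑ i ∈ B, (w * a i - n i) ^ 3 / n i = s * m * ((w - 1) ^ 2 - R))
    (E3 : ∑ i ∈ B, (n i : ℝ) * (w * a i - n i) = 0) (hκ : κ ≤ 2 / 3)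
    (h : ∀ i ∈ B, i ≠ o → (a i : ℝ) ≤ (1 - κ) * n i) :
    κ * (w - 1) * (m * s - (w - 1)) * w < s * m * R := by
  classical
  have hn' : ∀ i, (0 : ℝ) < n i := fun i => by exact_mod_cast hn i
  have e1 : ∑ i ∈ B, w * ((w * a i - n i) ^ 2 * (1 - a i / n i)) = s * m * R := by
    rw [sum_congr rfl (g := fun i => (w - 1) * (w * a i - n i) ^ 2 - (w * a i - n i) ^ 3 / n i)
      fun i _ => by have := (hn' i).ne'; field_simp; ring, sum_sub_distrib, ← mul_sum, E1, E2]
    ring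
  obtain ⟨j, hj, hb⟩ : ∃ j ∈ B, w * a j - n j < 0 := by
    by_contra hno'
    push Not at hno'
    have := (sum_eq_zero_iff_of_nonneg fun i hi => mul_nonneg (hn' i).le (hno' i hi)).1 E3 o ho
    rw [hno, hao] at this
    push_cast at this
    linarith
  have hjo : j ≠ o := by rintro rfl; rw [hno, hao] at hb; push_cast at hb; linarith
  rw [← add_sum_erase _ _ ho, hno, hao] at e1 E1
  have e2 : ∑ i ∈ B.erase o, w * ((w * a i - n i) ^ 2 * κ) <
      ∑ i ∈ B.erase o, w * ((w * a i - n i) ^ 2 * (1 - a i / n i)) := by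
    refine sum_lt_sum (fun i hi => ?_) ⟨j, mem_erase.2 ⟨hjo, hj⟩, ?_⟩
    · have := (div_le_iff₀ (hn' i)).2 (h i (mem_erase.1 hi).2 (mem_erase.1 hi).1)
      gcongr
      linarith
    · have h1 : (a j : ℝ) / n j < 1 / 3 := by
        rw [div_lt_iff₀ (hn' j)]
        nlinarith [(Nat.cast_nonneg (a j) : (0 : ℝ) ≤ a j)]
      have h2 : 0 < (w * a j - n j) ^ 2 := by nlinarith
      gcongr
      linarith
  rw [← mul_sum, ← sum_mul] at e2
  push_cast at e1 E1
  rw [show ∑ i ∈ B.erase o, (w * a i - n i) ^ 2 = (w - 1) * m * s - (w - 1) ^ 2 by linarith] at e2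
  linarith

theorem arith {ι : Type*} {B : Finset ι} {o : ι} (ho : o ∈ B) {n a : ι → ℕ} {w m s p : ℕ} {R : ℝ}
    (hn : ∀ i, 0 < n i) (hno : n o = 1) (hao : a o = 1)
    (h : ∀ i ∈ B, i ≠ o → a i < n i ∧ w * a i ^ 2 ≤ n i ^ 2)
    (E1 : ∑ i ∈ B, ((w : ℝ) * a i - n i) ^ 2 = (w - 1) * m * s)
    (E2 : ∑ i ∈ B, ((w : ℝ) * a i - n i) ^ 3 / n i = s * m * ((w - 1) ^ 2 - R))
    (E3 : ∑ i ∈ B, (n i : ℝ) * (w * a i - n i) = 0)
    (R1 : R ≤ (w - 1) * m) (R0 : 0 ≤ R) (R2 : R * (p - 1) ≤ (w - 1) ^ 2) (hm : 2 ≤ m) (hmw : m < w)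
    (hws : w ≤ s) (hp : 3 ≤ p) (hc : 5 ≤ p ∧ 4 ≤ w ∨ 9 ≤ w ∨ w = 3 ∧ (9 ≤ s ∨ s = 3)) : False := by
  classical
  have hw : (3 : ℝ) ≤ w := by exact_mod_cast (by omega : 3 ≤ w)
  have hm' : (2 : ℝ) ≤ m := by exact_mod_cast hm
  have hs' : (w : ℝ) ≤ s := by exact_mod_cast hws
  have hp' : (3 : ℝ) ≤ p := by exact_mod_cast hp
  have core := fun κ => arith_core (κ := κ) ho hn hno hao hw E1 E2 E3
  have sq : ∀ c d : ℕ, c ^ 2 ≤ d ^ 2 * w → ∀ i ∈ B, i ≠ o → (c * a i : ℝ) ≤ d * n i := fun c d e i hi hio => by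
    have := (h i hi hio).2
    exact_mod_cast Nat.pow_le_pow_iff_left two_ne_zero |>.1 (by
      calc (c * a i) ^ 2 = c ^ 2 * a i ^ 2 := by ring
        _ ≤ d ^ 2 * w * a i ^ 2 := by gcongr
        _ = d ^ 2 * (w * a i ^ 2) := by ring
        _ ≤ d ^ 2 * n i ^ 2 := by gcongr
        _ = (d * n i) ^ 2 := by ring)
  have hsm : 0 < (s : ℝ) * m := mul_pos (by linarith) (by linarith)
  have hR2 : 2 * R ≤ (w - 1) ^ 2 := by nlinarith
  rcases hc with ⟨h1, h2⟩ | h1 | ⟨rfl, h1⟩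
  · have := core (1 / 2) (by norm_num) fun i hi hio => by
      have := sq 2 1 (by omega) i hi hio; push_cast at this; linarith
    have h3 : (5 : ℝ) ≤ p := by exact_mod_cast h1
    have h4 : 4 * R ≤ (w - 1) ^ 2 := by nlinarith
    have h5 : ((w : ℝ) - 1) * (2 * (m * s - (w - 1)) * w) < (w - 1) * (s * m * (w - 1)) := by nlinarith
    have h6 := lt_of_mul_lt_mul_left h5 (by linarith)
    have h7 : 2 * (w : ℝ) ≤ m * s := by nlinarith
    nlinarith
  · have := core (2 / 3) le_rfl fun i hi hio => by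
      have := sq 3 1 (by omega) i hi hio; push_cast at this; linarith
    have h3 : (9 : ℝ) ≤ w := by exact_mod_cast h1
    have h7 : 2 * (w : ℝ) ≤ m * s := by nlinarith
    rcases le_total ((w : ℝ) - 1) (2 * m) with h4 | h4
    · have h5 : ((w : ℝ) - 1) * (4 * (m * s - (w - 1)) * w) < (w - 1) * (3 * (s * m * (w - 1))) := by
        nlinarith
      have h6 := lt_of_mul_lt_mul_left h5 (by linarith)
      have h8 : (w : ℝ) * (4 * (m * s - (w - 1))) < w * (3 * (s * m)) := by nlinarith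
      have h9 := lt_of_mul_lt_mul_left h8 (by linarith)
      nlinarith
    · have h5 : ((w : ℝ) - 1) * (2 * (m * s - (w - 1)) * w) < (w - 1) * (3 * (s * m * m)) := by
        nlinarith
      have h6 := lt_of_mul_lt_mul_left h5 (by linarith)
      have h8 : 0 ≤ ((w : ℝ) - 1 - 2 * m) * (m * s - (w - 1) - 2 * m) :=
        mul_nonneg (by linarith) (by nlinarith)
      have h9 : 0 ≤ (m : ℝ) * m * (s - 8) := mul_nonneg (by positivity) (by linarith)
      nlinarith
  obtain rfl : m = 2 := by omega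
  rcases h1 with h1 | rfl
  · have := core (2 / 5) (by norm_num) fun i hi hio => by
      have := sq 5 3 (by omega) i hi hio; push_cast at this; linarith
    have h3 : (9 : ℝ) ≤ s := by exact_mod_cast h1
    push_cast at this hR2
    nlinarith
  · have := core (1 / 2) (by norm_num) fun i hi hio => by
      have h2 := sum_le_sum_of_subset_of_nonneg (f := fun i => (((3 : ℕ) : ℝ) * a i - n i) ^ 2)
        (insert_subset ho (singleton_subset_iff.2 hi)) fun _ _ _ => sq_nonneg _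
      rw [sum_pair hio.symm, E1, hno, hao] at h2
      push_cast at h2
      have h3 : (3 : ℝ) * a i < n i + 3 := by nlinarith
      have h4 : 3 * a i < n i + 3 := by exact_mod_cast h3
      have h5 : 2 * a i ≤ n i := by have := (h i hi hio).1; omega
      have h6 : (2 : ℝ) * a i ≤ n i := by exact_mod_cast h5
      linarith
    push_cast at this hR2
    linarith

end CfsgLib.Fis
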