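import Mathlib
import Cfsg.Agent.Lib.Tech.SylowIn
import Cfsg.Agent.Lib.Transfer.Focal
import Cfsg.Agent.Lib.Transfer.NormalComplement
import Cfsg.Agent.Lib.PLocal.PSolvable
import Cfsg.Agent.Lib.Block.Klein
import Cfsg.Agent.Lib.Core.Cores

/-! Strongly closed subgroups of the centre of a Sylow subgroup, with `p`-nilpotent centralizers. -/

set_option autoImplicit false
set_option linter.unusedSectionVars false

namespace CfsgLib.Fis

open Subgroup Cfsg CfsgLib.Tech CfsgLib.Transfer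

variable {G : Type*} [Group G] [Finite G] {p : ℕ} [hp : Fact p.Prime]

theorem control {P : Sylow p G} {H : Subgroup G} (hH : HasNormalPComplement p H)
    (hPH : (P : Subgroup G) ≤ H) {x h : G} (hx : x ∈ (P : Subgroup G)) (hh : h ∈ H)
    (e : h * x * h⁻¹ ∈ (P : Subgroup G)) : ∃ u ∈ (P : Subgroup G), h * x * h⁻¹ = u * x * u⁻¹ := by
  obtain ⟨u, hu, e1⟩ := (hasNormalPComplement_iff_control (P.subtype hPH)).1 hH ⟨x, hPH hx⟩ hx ⟨h, hh⟩ e
  exact ⟨u, hu, congrArg Subtype.val e1⟩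

theorem eq_of_map_eq {K : Type*} [Group K] (f : G →* K) (hf : (Nat.card f.ker).Coprime p)
    {R : Subgroup G} (hR : IsPGroup p R) {x y : G} (hx : x ∈ R) (hy : y ∈ R) (e : f x = f y) : x = y :=
  inv_mul_eq_one.1 (mem_bot.1 (Core.isPGroup_inf_eq_bot_of_coprime hR hf ▸ mem_inf.2
    ⟨mul_mem (inv_mem hx) hy, by rw [MonoidHom.mem_ker, map_mul, map_inv, e, inv_mul_cancel]⟩))

theorem isConj_of_map_eq {K : Type*} [Group K] (f : G →* K) (hf : (Nat.card f.ker).Coprime p) {x y : G}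
    (hx : IsPGroup p (zpowers x)) (hy : IsPGroup p (zpowers y)) (e : f x = f y) : IsConj y x := by
  have h0 : zpowers x ≤ (zpowers (f x)).comap f := zpowers_le.2 (mem_zpowers (f x))
  have h1 : IsSylowIn p (zpowers x) ((zpowers (f x)).comap f) :=
    isSylowIn_of_maximal hx h0 fun R hR h2 h3 r hr => by
      obtain ⟨i, hi⟩ := h3 hr
      exact ⟨i, eq_of_map_eq f hf hR (zpow_mem (h2 (mem_zpowers x)) i) hr ((map_zpow f x i).trans hi)⟩
  obtain ⟨g, ⟨i, hi⟩, h2⟩ := h1.exists_conj_mem (x := y) (by rw [mem_comap, ← e]; exact mem_zpowers _) hy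
  refine isConj_iff.2 ⟨g, eq_of_map_eq f hf hx h2 (mem_zpowers x) ?_⟩
  rw [map_mul, map_mul, map_inv, ← e, ← hi]
  simp only
  group

/-- conjugation action -/
@[reducible] def cjAct (H : Subgroup G) : MulAction H G :=
  MulAction.compHom G ((MulAut.conj : G →* MulAut G).comp H.subtype)

theorem ncard_conj (H : Subgroup G) (x : G) :
    {y | ∃ h ∈ H, h * x * h⁻¹ = y}.ncard = (centralizer {x}).relIndex H := by
  let _ := cjAct H
  have e : MulAction.stabilizer H x = (centralizer {x}).subgroupOf H := by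
    ext h
    rw [mem_subgroupOf, mem_centralizer_singleton_iff, ← mul_inv_eq_iff_eq_mul]
    rfl
  rw [relIndex, ← e, MulAction.index_stabilizer]
  congr 1
  ext y
  exact ⟨fun ⟨h, hh, e⟩ => ⟨⟨h, hh⟩, e⟩, fun ⟨h, e⟩ => ⟨h, h.2, e⟩⟩

/-- a strongly closed subgroup `W` of `Ω₁(Z(P))`; centralizers of elements of order `p` are
`p`-nilpotent -/
structure Hyp (P : Sylow p G) (W : Subgroup G) : Prop where
  le : W ≤ P
  ne : W ≠ ⊥
  cen : W ≤ centralizer ((P : Subgroup G) : Set G)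
  exp : ∀ w ∈ W, w ^ p = 1
  sc : ∀ w ∈ W, ∀ g : G, g * w * g⁻¹ ∈ (P : Subgroup G) → g * w * g⁻¹ ∈ W
  npc : ∀ x : G, orderOf x = p → HasNormalPComplement p (centralizer ({x} : Set G))

namespace Hyp

variable {P : Sylow p G} {W : Subgroup G} (h : Hyp P W)
include h

theorem npc' {x : G} (hx : IsPGroup p (zpowers x)) (h1 : x ≠ 1) :
    HasNormalPComplement p (centralizer ({x} : Set G)) := by
  obtain ⟨k, hk⟩ := isPGroup_zpowers_iff.1 hx
  have h2 : p ∣ orderOf x := hk ▸ dvd_pow_self p (by rintro rfl; exact h1 (orderOf_eq_one_iff.1 hk))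
  exact hasNormalPComplement_of_le (h.npc _ (orderOf_pow_orderOf_div (orderOf_pos x).ne' h2))
    fun g hg => mem_centralizer_singleton_iff.2
      (Commute.pow_right (mem_centralizer_singleton_iff.1 hg) _)

theorem ord {z : G} (hz : z ∈ W) (h1 : z ≠ 1) : orderOf z = p := orderOf_eq_prime (h.exp z hz) h1

theorem pg : IsPGroup p W := P.isPGroup'.to_le h.le

theorem comm {z u : G} (hz : z ∈ W) (hu : u ∈ (P : Subgroup G)) : u * z = z * u := h.cen hz u hu

theorem le_C {z : G} (hz : z ∈ W) : (P : Subgroup G) ≤ centralizer {z} := fun _ hu =>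
  mem_centralizer_singleton_iff.2 (h.comm hz hu)

theorem le_CW : (P : Subgroup G) ≤ centralizer (W : Set G) := le_centralizer_iff.1 h.cen

theorem mem_norm {g : G} (hg : cj g W ≤ P) : g ∈ normalizer (W : Set G) :=
  mem_normalizer_of_forall fun w hw => h.sc w hw g (cj_le_iff.1 hg w hw)

theorem NP_le : normalizer ((P : Subgroup G) : Set G) ≤ normalizer (W : Set G) := fun _ hg =>
  h.mem_norm (cj_le_iff.2 fun _ hw => conj_mem_of_mem_normalizer hg (h.le hw))

theorem semireg {n z : G} (hn : n ∈ normalizer (W : Set G)) (hz : z ∈ W) (h1 : z ≠ 1)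
    (e : n ∈ centralizer {z}) : n ∈ centralizer (W : Set G) := fun w hw => by
  obtain ⟨u, hu, e1⟩ := control (h.npc z (h.ord hz h1)) (h.le_C hz) (h.le hw) e
    (h.le (conj_mem_of_mem_normalizer hn hw))
  rw [h.comm hw hu, mul_inv_cancel_right, mul_inv_eq_iff_eq_mul] at e1
  exact e1.symm

theorem npcW : HasNormalPComplement p (centralizer (W : Set G)) := by
  obtain ⟨⟨z, hz⟩, h1⟩ := ne_bot_iff_exists_ne_one.1 h.ne
  exact hasNormalPComplement_of_le (h.npc z (h.ord hz fun e => h1 (Subtype.ext e)))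
    (centralizer_le (Set.singleton_subset_iff.2 hz))

theorem fusionW {u g : G} (hu : u ∈ (P : Subgroup G)) (hg : g * u * g⁻¹ ∈ (P : Subgroup G)) :
    ∃ n ∈ normalizer (W : Set G), g * u * g⁻¹ = n * u * n⁻¹ := by
  have h1 : cj g⁻¹ W ≤ centralizer {u} := by
    rw [← cj_le_cj_iff g, cj_cj_inv, cj_centralizer_singleton]
    exact fun w hw => mem_centralizer_singleton_iff.2 (h.comm hw hg).symm
  obtain ⟨T, hT, h2⟩ := exists_isSylowIn_ge (isPGroup_cj g⁻¹ h.pg) h1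
  obtain ⟨c, hc, h3⟩ := hT.exists_cj_le h.pg fun w hw =>
    mem_centralizer_singleton_iff.2 (h.comm hw hu).symm
  obtain ⟨k, -, h4⟩ := (IsSylowIn.of_sylow_top P).exists_cj_le hT.pgroup le_top
  have h5 := h.mem_norm (g := k * g⁻¹) (by rw [cj_mul]; exact (cj_mono k h2).trans h4)
  have h6 := h.mem_norm (g := k * c) (by rw [cj_mul]; exact (cj_mono k h3).trans h4)
  refine ⟨g * c, by simpa [mul_assoc] using mul_mem (inv_mem h5) h6, ?_⟩
  rw [mul_assoc g c u, mem_centralizer_singleton_iff.1 hc]; group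

theorem frattini {n : G} (hn : n ∈ normalizer (W : Set G)) :
    ∃ c ∈ centralizer (W : Set G), n * c ∈ normalizer ((P : Subgroup G) : Set G) :=
  (IsSylowIn.of_sylow P h.le_CW).frattini' (mem_normalizer_iff_cj.2 (by
    rw [cj_centralizer, mem_normalizer_iff_cj.1 hn]))

theorem fusion {u g : G} (hu : u ∈ (P : Subgroup G)) (hg : g * u * g⁻¹ ∈ (P : Subgroup G)) :
    ∃ n ∈ normalizer ((P : Subgroup G) : Set G), n * u * n⁻¹ = g * u * g⁻¹ := by
  obtain ⟨n, hn, e⟩ := h.fusionW hu hg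
  obtain ⟨c, hc, h1⟩ := h.frattini hn
  obtain ⟨y, hy, e1⟩ := control h.npcW h.le_CW hu (inv_mem hc) (by
    have := conj_mem_of_mem_normalizer' h1 hg
    rw [e] at this
    simpa [mul_assoc] using this)
  refine ⟨n * c * y, mul_mem h1 (le_normalizer hy), ?_⟩
  rw [e, show n * c * y * u * (n * c * y)⁻¹ = n * c * (y * u * y⁻¹) * (n * c)⁻¹ by group, ← e1]
  group

end Hyp

/-- the order of the automizer -/
noncomputable def mm (P : Sylow p G) (W : Subgroup G) : ℕ :=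
  (centralizer (W : Set G)).relIndex (normalizer ((P : Subgroup G) : Set G))

namespace Hyp

variable {P : Sylow p G} {W : Subgroup G} (h : Hyp P W)
include h

theorem set_eq {u : G} (hu : u ∈ (P : Subgroup G)) : {y | y ∈ (P : Subgroup G) ∧ IsConj u y} =
    {y | ∃ n ∈ normalizer ((P : Subgroup G) : Set G), n * u * n⁻¹ = y} := by
  ext y
  refine ⟨fun ⟨h1, h2⟩ => ?_, fun ⟨n, hn, e⟩ =>
    ⟨e ▸ conj_mem_of_mem_normalizer hn hu, isConj_iff.2 ⟨n, e⟩⟩⟩
  obtain ⟨g, rfl⟩ := isConj_iff.1 h2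
  exact h.fusion hu h1

theorem ncard_W {z : G} (hz : z ∈ W) (h1 : z ≠ 1) : {y | y ∈ W ∧ IsConj z y}.ncard = mm P W := by
  have e : {y | y ∈ W ∧ IsConj z y} = {y | y ∈ (P : Subgroup G) ∧ IsConj z y} := by
    ext y
    refine ⟨fun hy => ⟨h.le hy.1, hy.2⟩, fun ⟨h2, h3⟩ => ⟨?_, h3⟩⟩
    obtain ⟨g, rfl⟩ := isConj_iff.1 h3
    exact h.sc z hz g h2
  rw [e, h.set_eq (h.le hz), ncard_conj, mm, ← inf_relIndex_right, ← inf_relIndex_right (centralizer (W : Set G))]
  congr 1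
  exact le_antisymm (fun n hn => ⟨h.semireg (h.NP_le hn.2) hz h1 hn.1, hn.2⟩)
    (inf_le_inf_right _ (centralizer_le (Set.singleton_subset_iff.2 hz)))

theorem two_le_mm (hn : ¬ HasNormalPComplement p G) : 2 ≤ mm P W := by
  have h0 : mm P W ≠ 0 := index_ne_zero_of_finite
  by_contra h1
  have h2 : mm P W = 1 := by omega
  refine hn (hasNormalPComplement_of_control P h.le_CW (fun x hx g hg => ?_) h.npcW)
  obtain ⟨n, hn, e⟩ := h.fusion hx hg
  exact ⟨n, relIndex_eq_one.1 h2 hn, e.symm⟩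

theorem ncard_P {u : G} (hu : u ∈ (P : Subgroup G)) :
    p ^ (Nat.card (centralizer ({u} : Set G))).factorization p *
      {y | y ∈ (P : Subgroup G) ∧ IsConj u y}.ncard ≤ mm P W * Nat.card (P : Subgroup G) := by
  obtain ⟨T, hT, h1⟩ := exists_isSylowIn_ge (isPGroup_zpowers_of_mem P.isPGroup' hu)
    (zpowers_le.2 (mem_centralizer_singleton_iff.2 rfl) : zpowers u ≤ centralizer {u})
  obtain ⟨k, -, h2⟩ := (IsSylowIn.of_sylow_top P).exists_cj_le hT.pgroup le_top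
  have hv : k * u * k⁻¹ ∈ (P : Subgroup G) := cj_le_iff.1 h2 u (h1 (mem_zpowers u))
  have e : {y | y ∈ (P : Subgroup G) ∧ IsConj u y} =
      {y | y ∈ (P : Subgroup G) ∧ IsConj (k * u * k⁻¹) y} := by
    have : IsConj u (k * u * k⁻¹) := isConj_iff.2 ⟨k, rfl⟩
    ext y
    exact and_congr_right fun _ => ⟨fun h3 => this.symm.trans h3, fun h3 => this.trans h3⟩
  rw [e, h.set_eq hv, ncard_conj, ← hT.card_eq_pow, ← card_cj k T]
  set N := normalizer ((P : Subgroup G) : Set G)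
  set Y := centralizer (W : Set G) ⊓ N
  have hPY : (P : Subgroup G) ≤ Y := le_inf h.le_CW le_normalizer
  have hY : HasNormalPComplement p Y := hasNormalPComplement_of_le h.npcW inf_le_left
  set O := (pResidual p Y).map Y.subtype
  have hO : (Nat.card O).Coprime p := by
    rw [card_subtype]; exact hasNormalPComplement_iff_coprime.1 hY
  have h3 : Nat.card O * Nat.card (P : Subgroup G) = Nat.card Y := by
    rw [card_subtype, ← (isComplement'_pResidual hY (P.subtype hPY)).card_mul_card, Sylow.coe_subtype,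
      Nat.card_congr (subgroupOfEquivOfLe hPY).toEquiv]
  have h4 : O ≤ centralizer {k * u * k⁻¹} ⊓ N := by
    rintro _ ⟨o, ho, rfl⟩
    exact ⟨centralizer_le (Set.singleton_subset_iff.2 hv) (mem_centralizer_of_hasNormalPComplement hY
      P.isPGroup' hPY o.2 o.2.2 (by simpa using (mem_pResidual_iff_coprime hY o).1 ho)), o.2.2⟩
  have h5 : cj k T ≤ centralizer {k * u * k⁻¹} ⊓ N :=
    le_inf (by rw [← cj_centralizer_singleton]; exact cj_mono k hT.le) (h2.trans le_normalizer)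
  obtain ⟨j, hj⟩ := (isPGroup_cj k hT.pgroup).exists_card_eq
  have h6 := Nat.le_of_dvd Nat.card_pos (Nat.Coprime.mul_dvd_of_dvd_of_dvd
    (hj ▸ (hO.pow_right j).symm) (card_dvd_of_le h5) (card_dvd_of_le h4))
  have h7 := card_mul_relIndex' (inf_le_right : centralizer {k * u * k⁻¹} ⊓ N ≤ N)
  have h8 := card_mul_relIndex' (inf_le_right : Y ≤ N)
  rw [inf_relIndex_right] at h7 h8
  refine Nat.le_of_mul_le_mul_right ?_ (Nat.card_pos (α := O))
  calc _ = Nat.card (cj k T) * Nat.card O * (centralizer {k * u * k⁻¹}).relIndex N := by ring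
    _ ≤ Nat.card N := h7 ▸ Nat.mul_le_mul_right _ h6
    _ = _ := by rw [← h8, ← h3, mm]; ring

theorem pair {H : Subgroup G} (hH : IsPSolvable p H) {s : Set G} (hs : H = closure s)
    (hD : ∀ d ∈ s, ∃ z ∈ W, IsConj z d) : HasNormalPComplement p H ∧
      ∀ y ∈ H, IsPGroup p (zpowers y) → ∃ z ∈ W, IsConj z y := by
  obtain ⟨Q⟩ : Nonempty (Sylow p H) := inferInstance
  obtain ⟨k, -, h1⟩ := (IsSylowIn.of_sylow_top P).exists_cj_le (Q.isPGroup'.map H.subtype) le_top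
  have h2 : ∀ x ∈ (Q : Subgroup H), k * x * k⁻¹ ∈ (P : Subgroup G) := fun x hx =>
    cj_le_iff.1 h1 _ ⟨x, hx, rfl⟩
  set V := (Q : Subgroup H) ⊓ (cj k⁻¹ W).subgroupOf H
  have hV : ∀ x : H, x ∈ V ↔ x ∈ (Q : Subgroup H) ∧ k * x * k⁻¹ ∈ W := fun x => by
    rw [mem_inf, mem_subgroupOf, mem_cj, inv_inv]
  have hsc : ∀ x ∈ (Q : Subgroup H), (∃ z ∈ W, IsConj z (x : G)) → x ∈ V := fun x hx ⟨z, hz, e⟩ => by
    obtain ⟨g, e1⟩ := isConj_iff.1 e
    have := h.sc z hz (k * g) (by simpa [← e1, mul_assoc] using h2 x hx)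
    exact (hV x).2 ⟨hx, by simpa [← e1, mul_assoc] using this⟩
  have hVD : ∀ x ∈ V, ∃ z ∈ W, IsConj z (x : G) := fun x hx =>
    ⟨_, ((hV x).1 hx).2, (isConj_iff.2 ⟨k, rfl⟩).symm⟩
  let f := QuotientGroup.mk' (pPrimeCore p H)
  have hf : Function.Surjective f := QuotientGroup.mk'_surjective _
  have hk : (Nat.card f.ker).Coprime p := by
    rw [QuotientGroup.ker_mk']; exact Core.coprime_card_pPrimeCore p H
  have h3 : pCore p (H ⧸ pPrimeCore p H) ≤ (Q : Subgroup H).map f :=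
    (Core.isPGroup_pCore p _).le_sylow_of_normal (Q.mapSurjective hf)
  have h4 : V.map f ≤ pCore p (H ⧸ pPrimeCore p H) := by
    refine le_trans ?_ (PLocal.PSolv.centralizer_pCore_le (PLocal.PSolv.quotient hH _)
      (Core.pPrimeCore_quotient_pPrimeCore p H))
    rintro _ ⟨v, hv, rfl⟩ a ha
    obtain ⟨x, hx, rfl⟩ := h3 ha
    rw [← map_mul, ← map_mul]
    congr 1
    have := h.comm ((hV v).1 hv).2 (h2 x hx)
    rw [conj_mul, conj_mul, mul_left_inj, mul_right_inj] at this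
    exact Subtype.ext this
  have hpQ : ∀ x ∈ (Q : Subgroup H), IsPGroup p (zpowers x) := fun x hx =>
    isPGroup_zpowers_of_mem Q.isPGroup' hx
  have hc : ∀ x y : H, IsConj x y → IsConj (x : G) y := fun x y e => H.subtype.map_isConj e
  have h5 : (V.map f).Normal := ⟨by
    rintro _ ⟨v, hv, rfl⟩ a
    obtain ⟨x, rfl⟩ := hf a
    obtain ⟨y, hy, e⟩ := h3 ((inferInstance : (pCore p (H ⧸ pPrimeCore p H)).Normal).conj_mem _ (h4 ⟨v, hv, rfl⟩) (f x))
    obtain ⟨z, hz, e1⟩ := hVD v hv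
    refine ⟨y, hsc y hy ⟨z, hz, e1.trans (hc _ _ ((isConj_iff.2 ⟨x, rfl⟩).trans
      (isConj_of_map_eq f hk (hpQ y hy) ?_ (by simpa using e))))⟩, e⟩
    rw [← cj_zpowers]; exact isPGroup_cj x (hpQ v hv.1)⟩
  have h6 : (V.map f).comap f = ⊤ := by
    have : H ≤ ((V.map f).comap f).map H.subtype := by
      refine hs.le.trans ((closure_le _).2 fun d hd => ?_)
      have hdH : d ∈ H := hs ▸ subset_closure hd
      obtain ⟨z, hz, e⟩ := hD d hd
      obtain ⟨g, e1⟩ := isConj_iff.1 e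
      obtain ⟨x, -, hx⟩ := (IsSylowIn.of_sylow_top Q).exists_conj_mem (x := ⟨d, hdH⟩) (mem_top _)
        (isPGroup_zpowers_of_pow (k := 1) (Subtype.ext (by
          simp [← e1, conj_pow, h.exp z hz])))
      have h7 := h5.conj_mem _ ⟨_, hsc _ hx ⟨z, hz, e.trans (isConj_iff.2 ⟨x, rfl⟩)⟩, rfl⟩ (f x)⁻¹
      exact ⟨⟨d, hdH⟩, by simpa [mul_assoc] using h7, rfl⟩
    exact eq_top_iff.2 fun x _ => by
      obtain ⟨y, hy, e⟩ := this x.2
      exact (Subtype.ext e : y = x) ▸ hy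
  have h7 : V.map f = ⊤ := comap_injective hf (h6.trans (comap_top f).symm)
  refine ⟨hasNormalPComplement_of_normal _ (Core.coprime_card_pPrimeCore p H) fun a => ?_,
    fun y hy h8 => ?_⟩
  · obtain ⟨j, hj⟩ := isPGroup_iff_mem.1 (Core.isPGroup_pCore p _) a (h4 (h7 ▸ mem_top a))
    exact ⟨j, hj⟩
  · obtain ⟨v, hv, e⟩ : f ⟨y, hy⟩ ∈ V.map f := h7 ▸ mem_top _
    obtain ⟨z, hz, e1⟩ := hVD v hv
    obtain ⟨j, hj⟩ := isPGroup_iff_mem.1 h8 y (mem_zpowers y)
    exact ⟨z, hz, e1.trans (hc _ _ (isConj_of_map_eq f hk (hpQ v hv.1)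
      (isPGroup_zpowers_of_pow (k := j) (Subtype.ext hj)) e).symm)⟩

variable (hc : ∀ x y : G, orderOf x = p → orderOf y = p → IsPSolvable p (closure ({x, y} : Set G)))
include hc

theorem pair' {z z' d : G} (hz : z ∈ W) (h1 : z ≠ 1) (hz' : z' ∈ W) (h2 : z' ≠ 1) (hd : IsConj z' d) :
    HasNormalPComplement p (closure ({d, z} : Set G)) ∧
      ∀ y ∈ closure ({d, z} : Set G), IsPGroup p (zpowers y) → ∃ z ∈ W, IsConj z y := by
  refine h.pair (hc d z ?_ (h.ord hz h1)) rfl ?_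
  · obtain ⟨g, rfl⟩ := isConj_iff.1 hd
    rw [← h.ord hz' h2]
    exact (SemiconjBy.orderOf_eq g (by simp [SemiconjBy])).symm
  · rintro x (rfl | rfl)
    exacts [⟨z', hz', hd⟩, ⟨x, hz, IsConj.refl x⟩]

theorem pPart_mem {z z' d u : G} (hz : z ∈ W) (h1 : z ≠ 1) (hz' : z' ∈ W) (h2 : z' ≠ 1)
    (hd : IsConj z' d) (hu : IsPPart p (d * z) u) : ∃ z ∈ W, IsConj z u :=
  (h.pair' hc hz h1 hz' h2 hd).2 u (Block.isPPart_mem hp.out hu
    (mul_mem (subset_closure (Or.inl rfl)) (subset_closure (Or.inr rfl))))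
    (isPGroup_zpowers_iff.2 (Block.isPPart_pElt hu))

theorem reg {z z' d : G} (hz : z ∈ W) (h1 : z ≠ 1) (hz' : z' ∈ W) (h2 : z' ≠ 1)
    (hd : IsConj z' d) (hr : ¬ p ∣ orderOf (d * z)) :
    IsConj z'⁻¹ z ∧ ∀ y ∈ zpowers z, ¬ p ∣ orderOf (d * y) → y = z := by
  have hH := (h.pair' hc hz h1 hz' h2 hd).1
  set H := closure ({d, z} : Set G)
  have hdH : d ∈ H := subset_closure (Or.inl rfl)
  have hzH : zpowers z ≤ H := zpowers_le.2 (subset_closure (Or.inr rfl))
  let f := QuotientGroup.mk' (pResidual p H)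
  have hk : (Nat.card f.ker).Coprime p := by
    rw [QuotientGroup.ker_mk']; exact hasNormalPComplement_iff_coprime.1 hH
  have key : ∀ y (hy : y ∈ zpowers z), ¬ p ∣ orderOf (d * y) → f ⟨y, hzH hy⟩ = f ⟨d, hdH⟩⁻¹ :=
    fun y hy e => by
      rw [map_inv, eq_inv_iff_mul_eq_one, mul_eq_one_comm, ← map_mul, ← MonoidHom.mem_ker,
        QuotientGroup.ker_mk', mem_pResidual_iff_coprime hH, ← orderOf_coe]
      exact ((Nat.Prime.coprime_iff_not_dvd hp.out).2 e).symm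
  have hpz : IsPGroup p (zpowers (⟨z, hzH (mem_zpowers z)⟩ : H)) :=
    isPGroup_zpowers_of_pow (k := 1) (Subtype.ext (by simp [h.exp z hz]))
  obtain ⟨g, rfl⟩ := isConj_iff.1 hd
  refine ⟨?_, fun y hy e => ?_⟩
  · refine (isConj_iff.2 ⟨g, ?_⟩).trans (H.subtype.map_isConj (isConj_of_map_eq f hk hpz
      (isPGroup_zpowers_of_pow (k := 1) (Subtype.ext ?_)) (key z (mem_zpowers z) hr)))
    · simp [mul_assoc]
    · rw [pow_one, coe_pow, coe_inv, inv_pow, conj_pow, h.exp z' hz']; simp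
  · obtain ⟨i, rfl⟩ := hy
    exact congrArg Subtype.val (eq_of_map_eq f hk hpz (x := ⟨_, hzH ⟨i, rfl⟩⟩) ⟨i, rfl⟩ (mem_zpowers _)
      ((key _ ⟨i, rfl⟩ e).trans (key z (mem_zpowers z) hr).symm))

end Hyp

end CfsgLib.Fis
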