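import Mathlib
import Cfsg.Agent.Lib.Char.Clifford
import Cfsg.Agent.Lib.Char.Kernel

/-! A lower bound for the norm of a character on a normal subgroup. -/

set_option autoImplicit false
set_option linter.unusedSectionVars false

namespace CfsgLib.Fis

open Subgroup Cfsg CfsgLib.Char
open scoped ComplexConjugate

theorem sum_eq_zero_of_central {N : Type*} [Group N] [Finite N] {ψ : N → ℂ} (hψ : IsIrrCharacter N ψ)
    {W : Type*} [Group W] [Fintype W] (j : W →* N) (hW : ∀ w, j w ∈ center N) {z : W}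
    (h : ψ (j z) ≠ ψ 1) : ∑ w : W, ψ (j w) = 0 := by
  have e : ∑ w : W, ψ (j w) = ψ (j z) / ψ 1 * ∑ w : W, ψ (j w) := by
    rw [Finset.mul_sum, ← Equiv.sum_comp (Equiv.mulLeft z)]
    exact Finset.sum_congr rfl fun w _ => by
      rw [Equiv.coe_mulLeft, map_mul, char_mul_of_norm_eq (isCharacter_of_isIrr hψ)
        (norm_irr_of_mem_center hψ (hW z))]
  by_contra h0
  exact h ((div_eq_one_iff_eq (irr_one_ne_zero hψ)).1 (mul_left_eq_self₀.1 e.symm |>.resolve_right h0))

variable {X : Type*} [Group X] [Fintype X] (N : Subgroup X) [N.Normal] [Fintype N] {W : Subgroup X}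
  [hW : W.Normal] [Fintype W] (hWN : W ≤ N) (hc : W ≤ centralizer (N : Set X))
  (hs : ∀ x : X, ∀ z ∈ W, z ≠ 1 → x ∈ centralizer {z} → x ∈ centralizer (W : Set X))
include hWN hc

theorem incl_mem_center (w : W) : inclusion hWN w ∈ center N :=
  mem_center_iff.2 fun n => Subtype.ext (hc w.2 n n.2)

include hs

theorem inertia_le {θ : N → ℂ} (hθ : IsIrrCharacter N θ) {z : W} (hz : θ (inclusion hWN z) ≠ θ 1) :
    inertia N θ ≤ centralizer (W : Set X) := fun x hx => by
  by_contra hxc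
  let φ : W → W := fun w => ⟨w⁻¹ * (x * w * x⁻¹), mul_mem (inv_mem w.2) (hW.conj_mem _ w.2 x)⟩
  have hinj : Function.Injective φ := fun a b e => by
    by_contra hne
    refine hxc (hs x ((b : X) * (a : X)⁻¹) (mul_mem b.2 (inv_mem a.2))
      (fun e1 => hne (Subtype.ext (mul_inv_eq_one.1 e1).symm)) (mem_centralizer_singleton_iff.2 ?_))
    have e1 : (a : X)⁻¹ * (x * a * x⁻¹) = (b : X)⁻¹ * (x * b * x⁻¹) := congrArg Subtype.val e
    calc x * ((b : X) * (a : X)⁻¹) = b * ((b : X)⁻¹ * (x * b * x⁻¹)) * (x * a * x⁻¹)⁻¹ * x := by group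
      _ = _ := by rw [← e1]; group
  obtain ⟨w, rfl⟩ := Finite.surjective_of_injective hinj z
  have h1 := (mem_inertia' N).1 hx (inclusion hWN w)
  have h2 := char_mul_of_norm_eq (isCharacter_of_isIrr hθ) (norm_irr_of_mem_center hθ
    (inv_mem (incl_mem_center N hWN hc w)))
  have h3 := h2 (inclusion hWN w)
  rw [inv_mul_cancel, ← h1, ← h2] at h3
  exact hz h3.symm

theorem norm_lower {χ : X → ℂ} (hχ : IsCharacter X χ) {z : X} (hz : z ∈ W) (hne : χ z ≠ χ 1) :
    ‖∑ w : W, χ w‖ ^ 2 + Nat.card W * ((centralizer (W : Set X)).index * Nat.card N) ≤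
      Nat.card W * ∑ n : N, ‖χ n‖ ^ 2 := by
  classical
  obtain ⟨k, hk, hf⟩ := exists_char_eq_sum_nat (isCharacter_restrict N hχ)
  obtain ⟨θ, h1, h2⟩ : ∃ θ : IrrCharacter N, k θ ≠ 0 ∧ (θ : N → ℂ) (inclusion hWN ⟨z, hz⟩) ≠ (θ : N → ℂ) 1 := by
    by_contra hno
    push Not at hno
    have e1 := congrFun hf (inclusion hWN ⟨z, hz⟩)
    have e2 := congrFun hf 1
    simp only [Finset.sum_apply, Pi.smul_apply, smul_eq_mul] at e1 e2
    refine hne (e1.trans ((Finset.sum_congr rfl fun ψ _ => ?_).trans e2.symm))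
    by_cases e : k ψ = 0
    · simp [e]
    · rw [hno ψ e]
  set f : N → ℂ := fun n => χ n
  set S := conjSet N (θ : N → ℂ)
  have hS : ∀ ψ ∈ S, IsIrrCharacter N ψ ∧ classInner f ψ = k θ ∧ ∑ w : W, ψ (inclusion hWN w) = 0 :=
    fun ψ hψ => by
      obtain ⟨g, rfl⟩ := (mem_conjSet N).1 hψ
      refine ⟨isIrr_conjChar N g θ.2, (classInner_res_conjChar N g
        (isClassFunction_of_isCharacter hχ) _).trans (hk θ), sum_eq_zero_of_central
          (isIrr_conjChar N g θ.2) _ (incl_mem_center N hWN hc)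
            (z := ⟨g⁻¹ * z * g⁻¹⁻¹, hW.conj_mem _ hz _⟩) ?_⟩
      rw [conjChar_apply_one, conjChar_apply]
      convert h2 using 3
      simp [mul_assoc]
  set T : N → ℂ := ∑ ψ ∈ S, ψ
  have e1 : classInner f T = S.card * k θ := by
    rw [classInner_sum_right, Finset.sum_congr rfl fun ψ hψ => (hS ψ hψ).2.1]; simp
  have e2 : classInner T f = S.card * k θ := by rw [← classInner_conj_symm, e1]; simp
  have e3 : classInner T T = S.card := by
    rw [classInner_sum_right, Finset.sum_congr rfl (g := fun _ => 1) fun ψ hψ => by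
      rw [classInner_sum_left, Finset.sum_congr rfl fun ψ' hψ' =>
        classInner_irr (hS ψ' hψ').1 (hS ψ hψ).1, Finset.sum_ite_eq' S ψ fun _ => 1, if_pos hψ]]
    simp
  set h : N → ℂ := f - (k θ : ℂ) • T
  have e4 : classInner f f = classInner h h + (S.card * (k θ : ℝ) ^ 2 : ℝ) := by
    simp only [h, classInner_sub_left, classInner_sub_right, classInner_smul_left,
      classInner_smul_right, e1, e2, e3, map_natCast]
    push_cast; ring
  rw [classInner_self_eq, classInner_self_eq, ← Complex.ofReal_add, Complex.ofReal_inj] at e4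
  have e5 : ∑ w : W, χ w = ∑ w : W, h (inclusion hWN w) := by
    simp only [h, T, Pi.sub_apply, Pi.smul_apply, Finset.sum_apply, Finset.sum_sub_distrib,
      ← Finset.smul_sum]
    rw [Finset.sum_comm, Finset.sum_congr rfl fun ψ hψ => (hS ψ hψ).2.2]
    simp [f]
  have e6 : ‖∑ w : W, χ w‖ ^ 2 ≤ Nat.card W * ∑ n : N, ‖h n‖ ^ 2 := by
    rw [e5]
    calc _ ≤ (∑ w : W, ‖h (inclusion hWN w)‖) ^ 2 := by gcongr; exact norm_sum_le _ _
      _ ≤ Nat.card W * ∑ w : W, ‖h (inclusion hWN w)‖ ^ 2 := by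
        rw [Nat.card_eq_fintype_card]; exact sq_sum_le_card_mul_sum_sq
      _ ≤ _ := by
        gcongr
        rw [← Finset.sum_image (f := fun n => ‖h n‖ ^ 2) fun a _ b _ e => inclusion_injective hWN e]
        exact Finset.sum_le_sum_of_subset_of_nonneg (Finset.subset_univ _) fun _ _ _ => by positivity
  have e7 : ((centralizer (W : Set X)).index : ℝ) ≤ S.card * (k θ : ℝ) ^ 2 := by
    have h3 : (centralizer (W : Set X)).index ≤ S.card := by
      rw [card_conjSet]
      exact Nat.le_of_dvd (Nat.pos_of_ne_zero index_ne_zero_of_finite)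
        (index_dvd_of_le (inertia_le N hWN hc hs θ.2 h2))
    exact_mod_cast h3.trans (Nat.le_mul_of_pos_right _ (by positivity))
  have h0 : (0 : ℝ) < Nat.card N := by exact_mod_cast Nat.card_pos
  have e8 : ∑ n : N, ‖χ n‖ ^ 2 = ∑ n : N, ‖h n‖ ^ 2 + S.card * (k θ : ℝ) ^ 2 * Nat.card N := by
    field_simp at e4
    linarith
  rw [e8, mul_add]
  gcongr

end CfsgLib.Fis
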