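import Mathlib
import Cfsg.Agent.Lib.Fis.Loc
import Cfsg.Agent.Lib.Fis.Norm
import Cfsg.Agent.Lib.Fis.Arith
import Cfsg.Agent.Lib.Block.ConjSum
import Cfsg.Agent.Lib.Block.Principal
import Cfsg.Agent.Lib.Block.Span

/-! The principal block count for a strongly closed central subgroup, `p` odd. -/

set_option autoImplicit false
set_option linter.unusedSectionVars false

namespace CfsgLib.Fis

open Subgroup Cfsg CfsgLib.Tech CfsgLib.Char CfsgLib.Block Finset
open scoped ComplexConjugate Classical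

variable {G : Type*} [Group G] [Fintype G] {p : ℕ} [hp : Fact p.Prime] {M : Ideal AlgInt}

/-- the nonidentity elements -/
noncomputable def nz (W : Subgroup G) : Finset G := univ.filter fun z => z ∈ W ∧ z ≠ 1

theorem mem_nz {W : Subgroup G} {z : G} : z ∈ nz W ↔ z ∈ W ∧ z ≠ 1 := by simp [nz]

theorem sum_nz {A : Type*} [AddCommMonoid A] (W : Subgroup G) [Fintype W] (f : G → A) :
    ∑ z : W, f z = f 1 + ∑ z ∈ nz W, f z := by
  rw [← sum_subtype (univ.filter (· ∈ W)) (by simp), ← add_sum_erase _ _ (a := 1) (by simp)]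
  congr 2
  ext z
  simp [nz, and_comm]

theorem card_nz (W : Subgroup G) : (nz W).card + 1 = Nat.card W := by
  have := sum_nz W (fun _ => 1)
  simp only [sum_const, card_univ, smul_eq_mul, mul_one] at this
  rw [Nat.card_eq_fintype_card, this, add_comm]

theorem card_filter_nz (W : Subgroup G) {z : G} (hz : z ≠ 1) :
    ((nz W).filter (IsConj z)).card = {y | y ∈ W ∧ IsConj z y}.ncard := by
  rw [← Set.ncard_coe_finset]
  congr 1
  ext y
  simp only [coe_filter, mem_nz, Set.mem_ofPred_eq]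
  exact ⟨fun h => ⟨h.1.1, h.2⟩, fun h => ⟨⟨h.1, by rintro rfl; exact hz (isConj_one_left.1 h.2)⟩, h.2⟩⟩

/-- the number of `z` with `d * z` regular -/
noncomputable def rg (p : ℕ) (W : Subgroup G) (d : G) : ℕ :=
  ((nz W).filter fun z => ¬ p ∣ orderOf (d * z)).card

/-- the principal block -/
noncomputable abbrev bl (M : Ideal AlgInt) (G : Type*) [Group G] [Finite G] : Finset (IrrCharacter G) :=
  univ.filter (· ∈ principalBlock M G)

namespace Hyp

variable {P : Sylow p G} {W : Subgroup G} (h : Hyp P W) (hM : IsPModular p M)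
include h

theorem card_filter {z : G} (hz : z ∈ nz W) : ((nz W).filter (IsConj z)).card = mm P W := by
  rw [card_filter_nz W (mem_nz.1 hz).2, h.ncard_W (mem_nz.1 hz).1 (mem_nz.1 hz).2]

include hM

theorem orth {x : G} (hx : x ∈ nz (P : Subgroup G)) {g u : G} (hu : IsPPart p g u) :
    ∑ χ ∈ bl M G, (χ : G → ℂ) g * conj ((χ : G → ℂ) x) =
      if IsConj u x then ((p ^ (Nat.card (centralizer ({x} : Set G))).factorization p : ℕ) : ℂ) else 0 := by
  obtain ⟨k, hk⟩ := index_pPrimeCore_of_hasNormalPComplement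
    (h.npc' (isPGroup_zpowers_of_mem P.isPGroup' (mem_nz.1 hx).1) (mem_nz.1 hx).2)
  rw [Nat.cast_pow]
  convert sum_principal_mul_conj_of_index hM (pElt_of_mem_isPGroup hM.1 P.isPGroup' (mem_nz.1 hx).1) hk hu

theorem phi {g u : G} (hu : IsPPart p g u) :
    ∑ χ ∈ bl M G, (χ : G → ℂ) g * conj (∑ z ∈ nz W, (χ : G → ℂ) z) =
      ((nz W).filter (IsConj u)).card * Nat.card (P : Subgroup G) := by
  simp only [map_sum, mul_sum]
  rw [sum_comm, sum_congr rfl fun z hz => by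
    rw [h.orth hM (mem_nz.2 ⟨h.le (mem_nz.1 hz).1, (mem_nz.1 hz).2⟩) hu,
      pow_factorization_eq_card_of_le P (h.le_C (mem_nz.1 hz).1)], ← sum_filter, sum_const, nsmul_eq_mul]

theorem phi_reg {g : G} (hg : ¬ p ∣ orderOf g) :
    ∑ χ ∈ bl M G, (χ : G → ℂ) g * conj (∑ z ∈ nz W, (χ : G → ℂ) z) = 0 := by
  rw [h.phi hM (isPPart_one hg), filter_eq_empty_iff.2 fun z hz e =>
    (mem_nz.1 hz).2 (isConj_one_right.1 e)]
  simp

theorem phi_sing {g u z : G} (hu : IsPPart p g u) (hz : z ∈ nz W) (e : IsConj z u) :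
    ∑ χ ∈ bl M G, (χ : G → ℂ) g * conj (∑ z ∈ nz W, (χ : G → ℂ) z) =
      mm P W * Nat.card (P : Subgroup G) := by
  rw [h.phi hM hu, ← h.card_filter hz, filter_congr fun y _ =>
    (⟨fun h1 => e.trans h1, fun h1 => e.symm.trans h1⟩ : IsConj u y ↔ IsConj z y)]

theorem upper {χ : IrrCharacter G} (hχ : χ ∈ bl M G) :
    ∑ u ∈ nz (P : Subgroup G), ‖(χ : G → ℂ) u‖ ^ 2 ≤ mm P W * Nat.card (P : Subgroup G) := by
  set s := ∑ u ∈ nz (P : Subgroup G), ‖(χ : G → ℂ) u‖ ^ 2 with hs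
  set F : IrrCharacter G → ℂ := fun ψ => ∑ u ∈ nz (P : Subgroup G), conj ((χ : G → ℂ) u) * (ψ : G → ℂ) u
  have e1 : F χ = s := by
    simp only [F, hs, Complex.ofReal_sum, Complex.ofReal_pow, Complex.conj_mul']
  have e2 : ((∑ ψ ∈ bl M G, ‖F ψ‖ ^ 2 : ℝ) : ℂ) = (∑ v ∈ nz (P : Subgroup G), ‖(χ : G → ℂ) v‖ ^ 2 *
      ((p ^ (Nat.card (centralizer ({v} : Set G))).factorization p *
        ((nz (P : Subgroup G)).filter (IsConj v)).card : ℕ) : ℝ) : ℝ) := by
    push_cast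
    simp only [← Complex.mul_conj', F, map_sum, map_mul, Complex.conj_conj, mul_sum]
    rw [sum_comm]
    refine sum_congr rfl fun v hv => ?_
    simp only [sum_mul]
    rw [sum_comm, sum_congr rfl (g := fun u => if IsConj v u then (χ : G → ℂ) v * conj ((χ : G → ℂ) v) *
      (p : ℂ) ^ (Nat.card (centralizer ({v} : Set G))).factorization p else 0) fun u hu => ?_,
      ← sum_filter, sum_const, nsmul_eq_mul]
    · ring
    have := h.orth hM hv (isPPart_self hM.1 (pElt_of_mem_isPGroup hM.1 P.isPGroup' (mem_nz.1 hu).1))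
    rw [sum_congr rfl (g := fun ψ : IrrCharacter G => conj ((χ : G → ℂ) u) * (χ : G → ℂ) v *
      ((ψ : G → ℂ) u * conj ((ψ : G → ℂ) v))) fun ψ _ => by ring, ← mul_sum, this]
    by_cases e : IsConj v u
    · rw [if_pos e, if_pos e.symm, classFun_eq_of_isConj (irr_isClassFunction χ) e]
      push_cast; ring
    · rw [if_neg e, if_neg fun e' => e e'.symm, mul_zero]
  have e3 : ‖F χ‖ ^ 2 ≤ s * (mm P W * Nat.card (P : Subgroup G)) := by
    refine (single_le_sum (f := fun ψ => ‖F ψ‖ ^ 2) (fun _ _ => sq_nonneg _) hχ).trans ?_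
    rw [Complex.ofReal_inj.1 e2, hs, sum_mul]
    refine sum_le_sum fun v hv => mul_le_mul_of_nonneg_left ?_ (sq_nonneg _)
    rw [card_filter_nz _ (mem_nz.1 hv).2]
    exact_mod_cast h.ncard_P (mem_nz.1 hv).1
  have h0 : 0 ≤ s := sum_nonneg fun _ _ => sq_nonneg _
  rw [e1, Complex.norm_real, Real.norm_of_nonneg h0, sq] at e3
  rcases h0.eq_or_lt with e | e
  · rw [← e]; positivity
  · exact le_of_mul_le_mul_left e3 e

theorem bound {χ : IrrCharacter G} (hχ : χ ∈ bl M G) {z : G} (hz : z ∈ W)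
    (hne : (χ : G → ℂ) z ≠ (χ : G → ℂ) 1) {a n : ℕ} (hn : (χ : G → ℂ) 1 = n)
    (ha : ∑ w : W, (χ : G → ℂ) w = Nat.card W * a) : Nat.card W * a ^ 2 ≤ n ^ 2 := by
  have h1 := h.upper hM hχ
  have hPN : (P : Subgroup G) ≤ normalizer ((P : Subgroup G) : Set G) := le_normalizer
  have := normal_subgroupOf_of_le_normalizer h.NP_le
  have h2 := norm_lower ((P : Subgroup G).subgroupOf (normalizer ((P : Subgroup G) : Set G)))
    (W := W.subgroupOf (normalizer ((P : Subgroup G) : Set G))) (comap_mono h.le)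
    (fun w hw u hu => Subtype.ext (h.comm hw hu)) (fun x y hy h3 h4 w hw => Subtype.ext
      (h.semireg (h.NP_le x.2) hy (fun e => h3 (Subtype.ext e)) (mem_centralizer_singleton_iff.2
        (congrArg Subtype.val (mem_centralizer_singleton_iff.1 h4))) w hw))
    (isCharacter_restrict _ (irr_isCharacter χ)) (z := ⟨z, hPN (h.le hz)⟩) hz hne
  have e1 := Equiv.sum_comp (subgroupOfEquivOfLe (h.le.trans hPN)).toEquiv fun w => (χ : G → ℂ) w
  have e2 := Equiv.sum_comp (subgroupOfEquivOfLe hPN).toEquiv fun w => ‖(χ : G → ℂ) w‖ ^ 2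
  have e3 : (centralizer (W.subgroupOf (normalizer ((P : Subgroup G) : Set G)) : Set (normalizer
      ((P : Subgroup G) : Set G)))).index = mm P W := by
    rw [mm, relIndex]
    congr 1
    ext x
    exact ⟨fun hx w hw => congrArg Subtype.val (hx ⟨w, hPN (h.le hw)⟩ hw),
      fun hx w hw => Subtype.ext (hx w hw)⟩
  rw [show (∑ w : W.subgroupOf (normalizer ((P : Subgroup G) : Set G)), (χ : G → ℂ) w) = _ from e1,
    show (∑ w : (P : Subgroup G).subgroupOf (normalizer ((P : Subgroup G) : Set G)),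
      ‖(χ : G → ℂ) w‖ ^ 2) = _ from e2, e3, Nat.card_congr (subgroupOfEquivOfLe hPN).toEquiv,
    Nat.card_congr (subgroupOfEquivOfLe (h.le.trans hPN)).toEquiv, ha,
    sum_nz (P : Subgroup G) fun w => ‖(χ : G → ℂ) w‖ ^ 2, hn, ← Nat.cast_mul, Complex.norm_natCast,
    Complex.norm_natCast] at h2
  have h0 : (0 : ℝ) < Nat.card W := by exact_mod_cast Nat.card_pos
  have h3 : (Nat.card W : ℝ) * (Nat.card W * a ^ 2) ≤ Nat.card W * n ^ 2 := by
    push_cast at h2
    nlinarith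
  exact_mod_cast le_of_mul_le_mul_left h3 h0

variable (hc : ∀ x y : G, orderOf x = p → orderOf y = p → IsPSolvable p (closure ({x, y} : Set G)))
include hc

omit hM in
theorem reg_le {z' d : G} (hz' : z' ∈ nz W) (hd : IsConj z' d) :
    rg p W d ≤ mm P W ∧ rg p W d * (p - 1) ≤ (nz W).card := by
  unfold rg
  have key := fun z (hz : z ∈ (nz W).filter fun z => ¬ p ∣ orderOf (d * z)) =>
    h.reg hc (mem_nz.1 (mem_filter.1 hz).1).1 (mem_nz.1 (mem_filter.1 hz).1).2 (mem_nz.1 hz').1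
      (mem_nz.1 hz').2 hd (mem_filter.1 hz).2
  have ho : ∀ z ∈ (nz W).filter fun z => ¬ p ∣ orderOf (d * z), orderOf z = p := fun z hz =>
    h.ord (mem_nz.1 (mem_filter.1 hz).1).1 (mem_nz.1 (mem_filter.1 hz).1).2
  constructor
  · rw [← h.card_filter (mem_nz.2 ⟨inv_mem (mem_nz.1 hz').1, inv_ne_one.2 (mem_nz.1 hz').2⟩)]
    exact card_le_card fun z hz => mem_filter.2 ⟨(mem_filter.1 hz).1, (key z hz).1⟩
  rw [← Nat.card_Ico 1 p, ← card_product]
  refine card_le_card_of_injOn (fun x => x.1 ^ x.2) (fun ⟨z, i⟩ hx => ?_) fun ⟨z, i⟩ hx ⟨y, j⟩ hy e => ?_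
  · obtain ⟨h1, h2⟩ := mem_product.1 hx
    exact mem_nz.2 ⟨pow_mem (mem_nz.1 (mem_filter.1 h1).1).1 i, pow_ne_one_of_lt_orderOf
      (Nat.one_le_iff_ne_zero.1 (mem_Ico.1 h2).1) (ho z h1 ▸ (mem_Ico.1 h2).2)⟩
  obtain ⟨h1, h2⟩ := mem_product.1 hx
  obtain ⟨h3, h4⟩ := mem_product.1 hy
  have h5 : y ∈ zpowers (y ^ j) := mem_zpowers_pow_iff.2 (by
    rw [ho y h3]
    exact (Nat.coprime_of_lt_prime (Nat.one_le_iff_ne_zero.1 (mem_Ico.1 h4).1) (mem_Ico.1 h4).2
      hp.out).symm)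
  obtain rfl : y = z := (key z h1).2 y (zpowers_le.2 (by
    rw [← show z ^ i = y ^ j from e]; exact pow_mem (mem_zpowers z) i) h5) (mem_filter.1 h3).2
  exact congrArg _ (pow_injOn_Iio_orderOf (ho y h1 ▸ (mem_Ico.1 h2).2) (ho y h1 ▸ (mem_Ico.1 h4).2) e)

theorem sum_phi {z' d : G} (hz' : z' ∈ nz W) (hd : IsConj z' d) :
    ∑ z ∈ nz W, ∑ χ ∈ bl M G, (χ : G → ℂ) (d * z) * conj (∑ z ∈ nz W, (χ : G → ℂ) z) =
      mm P W * Nat.card (P : Subgroup G) * ((nz W).card - rg p W d) := by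
  rw [rg, ← sum_filter_add_sum_filter_not _ fun z => p ∣ orderOf (d * z),
    sum_congr rfl (g := fun _ => (mm P W * Nat.card (P : Subgroup G) : ℂ)) fun z hz => ?_,
    sum_eq_zero fun z hz => h.phi_reg hM (mem_filter.1 hz).2,
    ← card_filter_add_card_filter_not (s := nz W) fun z => p ∣ orderOf (d * z)]
  · simp [mul_comm]
  obtain ⟨u, hu⟩ := exists_isPPart hM.1 (d * z)
  obtain ⟨y, hy, e⟩ := h.pPart_mem hc (mem_nz.1 (mem_filter.1 hz).1).1 (mem_nz.1 (mem_filter.1 hz).1).2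
    (mem_nz.1 hz').1 (mem_nz.1 hz').2 hd hu
  refine h.phi_sing hM hu (mem_nz.2 ⟨hy, ?_⟩) e
  rintro rfl
  exact not_dvd_orderOf_of_isPPart_one (isConj_one_right.1 e ▸ hu) (mem_filter.1 hz).2

end Hyp

theorem pow_cases {p a b : ℕ} (hp : p.Prime) (h2 : p ≠ 2) (h1 : 2 < p ^ a) (h : p ^ a ≤ p ^ b) :
    5 ≤ p ∧ 4 ≤ p ^ a ∨ 9 ≤ p ^ a ∨ p ^ a = 3 ∧ (9 ≤ p ^ b ∨ p ^ b = 3) := by
  have ha : a ≠ 0 := by rintro rfl; simp at h1
  by_cases h5 : 5 ≤ p
  · exact Or.inl ⟨h5, (by omega : 4 ≤ p).trans (Nat.le_self_pow ha p)⟩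
  have := hp.two_le
  obtain rfl : p = 3 := by
    have : p ≠ 4 := by rintro rfl; exact absurd hp (by decide)
    omega
  have k : ∀ c : ℕ, c ≠ 0 → 9 ≤ 3 ^ c ∨ 3 ^ c = 3 := fun c hc => by
    rcases (by omega : c = 1 ∨ 2 ≤ c) with rfl | h
    exacts [Or.inr rfl, Or.inl (Nat.pow_le_pow_right (by norm_num) h : 3 ^ 2 ≤ 3 ^ c)]
  exact Or.inr ((k a ha).imp_right fun e => ⟨e, k b (by rintro rfl; omega)⟩)

theorem Hyp.npc_of_odd {G : Type*} [Group G] [Finite G] {P : Sylow p G} {W : Subgroup G} (h : Hyp P W)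
    (hc : ∀ x y : G, orderOf x = p → orderOf y = p → IsPSolvable p (closure ({x, y} : Set G)))
    (h2 : p ≠ 2) (hW : ∀ N : Subgroup G, N.Normal → W ≤ N → N = ⊤) : HasNormalPComplement p G := by
  by_contra hn
  have := Fintype.ofFinite G
  obtain ⟨M, hM⟩ := exists_isPModular' hp.out
  choose a ha using fun χ : IrrCharacter G =>
    exists_classInner_eq_nat (isCharacter_restrict W (irr_isCharacter χ)) isCharacter_one
  choose n hn0 hn1 using fun χ : IrrCharacter G => exists_irr_one_eq_nat χ.2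
  have hw0 : (Nat.card W : ℂ) ≠ 0 := natCard_ne_zero
  have ha' : ∀ χ : IrrCharacter G, ∑ w : W, (χ : G → ℂ) w = Nat.card W * a χ := fun χ => by
    rw [← ha, classInner_one_right, mul_inv_cancel_left₀ hw0]
  have hb : ∀ χ : IrrCharacter G, ∑ z ∈ nz W, (χ : G → ℂ) z = ((Nat.card W * a χ - n χ : ℝ) : ℂ) :=
    fun χ => by push_cast; rw [← ha', ← hn1, sum_nz]; ring
  have hcard : ((nz W).card : ℂ) = Nat.card W - 1 := by rw [← card_nz]; simp
  have hG : (0 : ℝ) < Nat.card G := by exact_mod_cast Nat.card_pos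
  have hρ := fun z' (hz' : z' ∈ nz W) (g : G) => h.reg_le hc hz' (isConj_iff.2 ⟨g, rfl⟩)
  have hm := h.two_le_mm hn
  obtain ⟨⟨z, hz⟩, hz1⟩ := ne_bot_iff_exists_ne_one.1 h.ne
  have hmw : mm P W < Nat.card W := by
    rw [← card_nz, ← h.card_filter (mem_nz.2 ⟨hz, fun e => hz1 (Subtype.ext e)⟩)]
    exact Nat.lt_succ_of_le (card_filter_le _ _)
  obtain ⟨i, hi⟩ := h.pg.exists_card_eq
  obtain ⟨j, hj⟩ := P.isPGroup'.exists_card_eq
  have hws : Nat.card W ≤ Nat.card (P : Subgroup G) := card_le_of_le h.le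
  have hcR : ((nz W).card : ℝ) = Nat.card W - 1 := by rw [← card_nz]; simp
  refine arith (B := bl M G) (o := irrOne G) (n := n) (a := a) (w := Nat.card W) (m := mm P W)
    (s := Nat.card (P : Subgroup G)) (p := p) (R := (∑ z' ∈ nz W, ∑ g : G, (rg p W (g * z' * g⁻¹) : ℝ)) / Nat.card G)
    (mem_filter.2 ⟨mem_univ _, irrOne_mem_principalBlock hM⟩) hn0 (Nat.cast_eq_one.1 (hn1 (irrOne G)).symm)
    ?_ (fun χ hχ h1 => ?_) ?_ ?_ ?_ ?_ (div_nonneg (sum_nonneg fun _ _ => sum_nonneg fun _ _ =>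
      Nat.cast_nonneg _) hG.le) ?_ hm hmw hws
    (by have := hp.out.two_le; omega) (by
      have h3 : 2 < Nat.card W := by omega
      rw [hi] at h3 hws ⊢
      rw [hj] at hws ⊢
      exact pow_cases hp.out h2 h3 hws)
  · have := ha' (irrOne G)
    simp only [irrOne_apply, sum_const, card_univ, nsmul_eq_mul, ← Nat.card_eq_fintype_card] at this
    exact_mod_cast (mul_left_cancel₀ hw0 this).symm
  · obtain ⟨y, hy, h3⟩ : ∃ y ∈ W, (χ : G → ℂ) y ≠ (χ : G → ℂ) 1 := by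
      by_contra hno
      push Not at hno
      exact h1 (Subtype.ext (irr_eq_one_of_charKer_eq_top χ.2 (hW _ (charKer_normal (irr_isClassFunction χ))
        fun y hy => (mem_charKer (irr_isCharacter χ)).2 (hno y hy))))
    have h4 := h.bound hM hχ hy h3 (hn1 χ) (ha' χ)
    refine ⟨lt_of_not_ge fun h5 => ?_, h4⟩
    have h6 := Nat.pow_le_pow_left h5 2
    have h7 : 0 < a χ ^ 2 := pow_pos ((hn0 χ).trans_le h5) 2
    nlinarith
  · have := sum_congr rfl fun z hz => h.phi_sing hM (isPPart_self hM.1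
      (pElt_of_mem_isPGroup hM.1 h.pg (mem_nz.1 hz).1)) hz (IsConj.refl z)
    rw [sum_comm, sum_const, nsmul_eq_mul, hcard] at this
    simp only [← sum_mul, hb, Complex.conj_ofReal, ← sq] at this
    exact_mod_cast this.trans (mul_assoc _ _ _).symm
  · have e1 := sum_congr rfl fun z' hz' => sum_congr (rfl : univ = univ) fun g _ =>
      h.sum_phi hM hc hz' (isConj_iff.2 ⟨g, rfl⟩)
    have e2 : ∀ χ : IrrCharacter G, ∑ z' ∈ nz W, ∑ g : G, ∑ z ∈ nz W, (χ : G → ℂ) (g * z' * g⁻¹ * z) =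
        Nat.card G * ((∑ z ∈ nz W, (χ : G → ℂ) z) ^ 2 / n χ) := fun χ => by
      rw [← hn1, mul_div_assoc', eq_div_iff (irr_one_ne_zero χ.2), sq, sum_mul_sum, mul_comm, mul_sum,
        mul_sum]
      refine sum_congr rfl fun z' _ => ?_
      rw [sum_comm, mul_sum, mul_sum]
      exact sum_congr rfl fun z _ => irr_sum_conj_mul χ.2 z' z
    rw [sum_congr rfl fun z' _ => sum_congr rfl fun g _ => sum_comm, sum_congr rfl fun z' _ => sum_comm,
      sum_comm] at e1
    simp only [← sum_mul, e2, ← mul_sum, sum_sub_distrib, sum_const, card_univ, nsmul_eq_mul, hb, hcard,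
      Complex.conj_ofReal, ← Nat.card_eq_fintype_card] at e1
    have e3 : ∑ χ ∈ bl M G, Nat.card G * (((Nat.card W : ℝ) * a χ - n χ) ^ 2 / n χ) *
        ((Nat.card W : ℝ) * a χ - n χ) = mm P W * Nat.card (P : Subgroup G) * ((Nat.card W - 1) *
          (Nat.card G * (Nat.card W - 1)) - ∑ z' ∈ nz W, ∑ g : G, (rg p W (g * z' * g⁻¹) : ℝ)) := by
      refine Complex.ofReal_injective ?_
      push_cast at e1 ⊢
      rw [e1]; ring
    refine mul_left_cancel₀ hG.ne' ?_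
    rw [mul_sum, sum_congr rfl fun χ _ => show _ = Nat.card G * (((Nat.card W : ℝ) * a χ - n χ) ^ 2 / n χ) *
      ((Nat.card W : ℝ) * a χ - n χ) by ring, e3]
    field_simp
  · have := h.phi_reg hM (g := 1) (by rw [orderOf_one, Nat.dvd_one]; exact hp.out.one_lt.ne')
    simp only [hb, hn1, Complex.conj_ofReal] at this
    exact_mod_cast this
  · rw [div_le_iff₀ hG]
    refine (sum_le_card_nsmul _ _ ((Nat.card G : ℝ) * mm P W) fun z' hz' => ?_).trans
      (by rw [nsmul_eq_mul, hcR]; exact le_of_eq (by ring))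
    refine (sum_le_card_nsmul _ _ (mm P W : ℝ) fun g _ => by exact_mod_cast (hρ z' hz' g).1).trans ?_
    rw [nsmul_eq_mul, card_univ, Nat.card_eq_fintype_card]
  · rw [div_mul_eq_mul_div, div_le_iff₀ hG, sum_mul]
    refine (sum_le_card_nsmul _ _ ((Nat.card G : ℝ) * (nz W).card) fun z' hz' => ?_).trans
      (by rw [nsmul_eq_mul, hcR]; exact le_of_eq (by ring))
    rw [sum_mul]
    refine (sum_le_card_nsmul _ _ ((nz W).card : ℝ) fun g _ => ?_).trans ?_
    · rw [← Nat.cast_one, ← Nat.cast_sub hp.out.one_le]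
      exact_mod_cast (hρ z' hz' g).2
    · rw [nsmul_eq_mul, card_univ, Nat.card_eq_fintype_card]

end CfsgLib.Fis
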